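import Mathlib

/-!
# Coded arithmetic in a small field (helper876)

A field with `n + 1` elements and a generator `ω` of its multiplicative group: the code `0` stands for `0`, the code
`i + 1` for `ω ^ i`.  `T` is a table of Zech logarithms, one byte per entry: `1 + ω ^ k` has the code `zt T k`.
`3 × 3` matrices with coded entries, the Cayley-Hamilton recursion, and the certificate `chk` for `SU_3(q)`, `q = 3, 4, 9`.
-/

set_option autoImplicit false

namespace Cfsg.Agent.H876.PwU3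

/-- table of Zech logarithms, one byte per entry -/
def zt (T k : ℕ) : ℕ := (T >>> (8 * k)) % 256

/-- multiplication of codes -/
def mulc (n : ℕ) : ℕ → ℕ → ℕ
  | 0, _ => 0
  | _ + 1, 0 => 0
  | i + 1, j + 1 => (i + j) % n + 1

/-- addition of codes -/
def addc (n T : ℕ) : ℕ → ℕ → ℕ
  | 0, j => j
  | i + 1, 0 => i + 1
  | i + 1, j + 1 => mulc n (i + 1) (zt T ((j + (n - 1) * i) % n))

/-- the `q`-th power -/
def barc (n q : ℕ) : ℕ → ℕ
  | 0 => 0
  | i + 1 => (i * q) % n + 1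

/-- the value of a code -/
def ev {F : Type*} [Field F] (ω : F) : ℕ → F
  | 0 => 0
  | i + 1 => ω ^ i

/-- the hypotheses on the table -/
structure Cd {F : Type*} [Field F] (n q T m1 : ℕ) (ω : F) : Prop where
  npos : 0 < n
  qpos : 0 < q
  pow : ω ^ n = 1
  z : ∀ k < n, 1 + ω ^ k = ev ω (zt T k)
  neg : ev ω m1 = -1

section

variable {F : Type*} [Field F] {n q T m1 : ℕ} {ω : F}

@[simp] theorem ev_zero : ev ω 0 = 0 := rfl
@[simp] theorem ev_succ (i : ℕ) : ev ω (i + 1) = ω ^ i := rfl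
theorem ev_one : ev ω 1 = 1 := pow_zero ω

theorem Cd.ne (h : Cd n q T m1 ω) : ω ≠ 0 := by
  rintro rfl
  have h1 := h.pow
  rw [zero_pow h.npos.ne'] at h1
  exact zero_ne_one h1

theorem Cd.pow_mod (h : Cd n q T m1 ω) (i : ℕ) : ω ^ (i % n) = ω ^ i := by
  conv_rhs => rw [← Nat.div_add_mod i n, pow_add, pow_mul, h.pow, one_pow, one_mul]

theorem Cd.mul (h : Cd n q T m1 ω) (i j : ℕ) : ev ω (mulc n i j) = ev ω i * ev ω j := by
  rcases i with _ | i
  · simp [mulc]
  rcases j with _ | j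
  · simp [mulc]
  · rw [mulc, ev_succ, ev_succ, ev_succ, h.pow_mod, pow_add]

theorem Cd.add (h : Cd n q T m1 ω) (i j : ℕ) : ev ω (addc n T i j) = ev ω i + ev ω j := by
  rcases i with _ | i
  · simp [addc]
  rcases j with _ | j
  · simp [addc]
  · rw [addc, h.mul, ← h.z _ (Nat.mod_lt _ h.npos), h.pow_mod, ev_succ, ev_succ, mul_add, mul_one, ← pow_add]
    congr 1
    obtain ⟨m, hm⟩ : ∃ m, n = m + 1 := ⟨n - 1, by have := h.npos; omega⟩
    have h1 : i + (j + (n - 1) * i) = n * i + j := by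
      rw [hm, Nat.add_sub_cancel]; ring
    rw [h1, pow_add, pow_mul, h.pow, one_pow, one_mul]

theorem Cd.bar (h : Cd n q T m1 ω) (i : ℕ) : ev ω (barc n q i) = ev ω i ^ q := by
  rcases i with _ | i
  · rw [barc, ev_zero, zero_pow h.qpos.ne']
  · rw [barc, ev_succ, ev_succ, h.pow_mod, pow_mul]

theorem Cd.inv (h : Cd n q T m1 ω) (i : ℕ) : ev ω (barc n (n - 1) i) * ev ω i = if i = 0 then 0 else 1 := by
  rcases i with _ | i
  · simp
  · rw [barc, ev_succ, ev_succ, h.pow_mod, if_neg (Nat.succ_ne_zero i), ← pow_add]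
    have h1 : i * (n - 1) + i = n * i := by
      obtain ⟨m, hm⟩ : ∃ m, n = m + 1 := ⟨n - 1, by have := h.npos; omega⟩
      rw [hm, Nat.add_sub_cancel]; ring
    rw [h1, pow_mul, h.pow, one_pow]

theorem Cd.inv' (h : Cd n q T m1 ω) (i : ℕ) : ev ω (barc n (n - 1) (i + 1)) = (ev ω (i + 1))⁻¹ := by
  have h1 := h.inv (i + 1)
  rw [if_neg (Nat.succ_ne_zero i)] at h1
  exact eq_inv_of_mul_eq_one_left h1

theorem Cd.ev_eq_zero (h : Cd n q T m1 ω) {i : ℕ} (hi : ev ω i = 0) : i = 0 := by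
  rcases i with _ | i
  · rfl
  · exact absurd hi (pow_ne_zero _ h.ne)

end

/-- `3 × 3` matrices of codes -/
structure M3 where
  (a b c d e f g h i : ℕ)
deriving DecidableEq

/-- the matrix -/
def toM {F : Type*} [Field F] (ω : F) (A : M3) : Matrix (Fin 3) (Fin 3) F :=
  !![ev ω A.a, ev ω A.b, ev ω A.c; ev ω A.d, ev ω A.e, ev ω A.f; ev ω A.g, ev ω A.h, ev ω A.i]

/-- product of matrices of codes -/
def mul3 (n T : ℕ) (A B : M3) : M3 :=
  let p := mulc n
  let s := addc n T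
  ⟨s (p A.a B.a) (s (p A.b B.d) (p A.c B.g)), s (p A.a B.b) (s (p A.b B.e) (p A.c B.h)),
    s (p A.a B.c) (s (p A.b B.f) (p A.c B.i)),
   s (p A.d B.a) (s (p A.e B.d) (p A.f B.g)), s (p A.d B.b) (s (p A.e B.e) (p A.f B.h)),
    s (p A.d B.c) (s (p A.e B.f) (p A.f B.i)),
   s (p A.g B.a) (s (p A.h B.d) (p A.i B.g)), s (p A.g B.b) (s (p A.h B.e) (p A.i B.h)),
    s (p A.g B.c) (s (p A.h B.f) (p A.i B.i))⟩

/-- transpose -/
def tr3 (A : M3) : M3 := ⟨A.a, A.d, A.g, A.b, A.e, A.h, A.c, A.f, A.i⟩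

/-- entrywise `q`-th power -/
def bar3 (n q : ℕ) (A : M3) : M3 :=
  ⟨barc n q A.a, barc n q A.b, barc n q A.c, barc n q A.d, barc n q A.e, barc n q A.f, barc n q A.g, barc n q A.h,
    barc n q A.i⟩

/-- the Gram matrix -/
def J3 : M3 := ⟨0, 0, 1, 0, 1, 0, 1, 0, 0⟩

/-- the determinant -/
def det3 (n T m1 : ℕ) (A : M3) : ℕ :=
  let p := mulc n
  let s := addc n T
  s (s (p A.a (p A.e A.i)) (s (p A.b (p A.f A.g)) (p A.c (p A.d A.h))))
    (p m1 (s (p A.c (p A.e A.g)) (s (p A.b (p A.d A.i)) (p A.a (p A.f A.h)))))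

/-- the Gram matrix -/
def JJ (F : Type*) [Field F] : Matrix (Fin 3) (Fin 3) F := !![0, 0, 1; 0, 1, 0; 1, 0, 0]

section

variable {F : Type*} [Field F] {n q T m1 : ℕ} {ω : F}

theorem Cd.mul3 (h : Cd n q T m1 ω) (A B : M3) : toM ω (mul3 n T A B) = toM ω A * toM ω B := by
  ext i j
  fin_cases i <;> fin_cases j <;>
    simp [toM, PwU3.mul3, Matrix.mul_apply, Fin.sum_univ_three, h.mul, h.add, add_assoc]

theorem toM_tr3 (A : M3) : toM ω (tr3 A) = (toM ω A).transpose := by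
  ext i j
  fin_cases i <;> fin_cases j <;> rfl

theorem toM_J3 : toM ω J3 = JJ F := by
  ext i j
  fin_cases i <;> fin_cases j <;> simp [toM, J3, JJ, ev_one]

theorem Cd.bar3 (h : Cd n q T m1 ω) {σ : F →+* F} (hσ : ∀ a, σ a = a ^ q) (A : M3) :
    toM ω (bar3 n q A) = (toM ω A).map σ := by
  ext i j
  rw [Matrix.map_apply, hσ]
  fin_cases i <;> fin_cases j <;> simp [toM, PwU3.bar3, h.bar]

theorem Cd.det3 (h : Cd n q T m1 ω) (A : M3) : ev ω (det3 n T m1 A) = (toM ω A).det := by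
  rw [Matrix.det_fin_three]
  simp only [PwU3.det3, h.mul, h.add, h.neg, toM, Matrix.of_apply, Matrix.cons_val', Matrix.cons_val_zero,
    Matrix.cons_val_one, Matrix.cons_val]
  ring

end

/-! ### the certificate -/

/-- one step of the Cayley-Hamilton recursion: multiplication by `A`, `A³ = t A² - t̄ A + 1`; `k` steps from
`(c0, c1, c2)` give `(1, 0, 0)` -/
def ch (n T t tb : ℕ) : ℕ → ℕ → ℕ → ℕ → Bool
  | 0, c0, c1, c2 => Nat.beq c0 1 && (Nat.beq c1 0 && Nat.beq c2 0)
  | k + 1, c0, c1, c2 =>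
    match addc n T c0 (mulc n tb c2), addc n T c1 (mulc n t c2) with
    | 0, 0 => ch n T t tb k c2 0 0
    | x + 1, 0 => ch n T t tb k c2 (x + 1) 0
    | 0, y + 1 => ch n T t tb k c2 0 (y + 1)
    | x + 1, y + 1 => ch n T t tb k c2 (x + 1) (y + 1)

/-- the trace of `B * M`, where `M` has the rows `(0, 0, α), (0, β, ν), (γ, μ, ρ)` -/
def trc (n T : ℕ) (B : M3) (α β ν γ μ ρ : ℕ) : ℕ :=
  let p := mulc n
  let s := addc n T
  s (p B.c γ) (s (s (p B.e β) (p B.f μ)) (s (p B.g α) (s (p B.h ν) (p B.i ρ))))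

/-- the certificate: the matrices `B` of the list `L` are unitary of determinant one with a trace in `S`, and for each
matrix `M` in normal form there is a `B` such that the trace of `B * M` is in `S` -/
def chk (n q T m1 : ℕ) (S : List ℕ) (L : List M3) : Bool :=
  (L.all fun B => decide (mul3 n T (mul3 n T (tr3 B) J3) (bar3 n q B) = J3) && (Nat.beq (det3 n T m1 B) 1 &&
    S.elem (addc n T B.a (addc n T B.e B.i)))) &&
  (List.range (q + 1)).all fun k => (List.range q).all fun m => (List.range (n + 1)).all fun r =>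
    let g := k + 1
    let gb := barc n q g
    let gi := barc n (n - 1) g
    let gbi := barc n (n - 1) gb
    let mb := barc n q m
    !(Nat.beq (addc n T (addc n T (mulc n g (barc n q r)) (mulc n gb r)) (mulc n m mb)) 0) ||
      L.any fun B => S.elem (trc n T B gbi (mulc n m1 (mulc n gb gi)) (mulc n mb gi) g m r)

end Cfsg.Agent.H876.PwU3
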