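import Cfsg.Agent.H876.PwU3.Small

/-!
# The fields with `9`, `16` and `81` elements (helper876)

`ω ^ d = 1 + ω`, `d = 2, 4, 4`; `vs d r k` is the vector of coordinates of `ω ^ k`.
-/

set_option autoImplicit false
set_option maxRecDepth 100000

namespace Cfsg.Agent.H876.PwU3

open Module Polynomial Cfsg.Agent.H951 Cfsg.Agent.H98.Ore Cfsg.Agent.H700.PwU

/-- multiplication by `ω`, where `ω ^ d = 1 + ω` (`d = 2` or `4`) -/
def stp (d r : ℕ) : ℕ × ℕ × ℕ × ℕ → ℕ × ℕ × ℕ × ℕ
  | (a, b, c, e) => if d = 2 then (b, (a + b) % r, 0, 0) else (e, (a + e) % r, b, c)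

/-- the coordinates of `ω ^ k` -/
def vs (d r : ℕ) : ℕ → ℕ × ℕ × ℕ × ℕ
  | 0 => (1, 0, 0, 0)
  | k + 1 => stp d r (vs d r k)

/-- the value -/
def val {R : Type*} [CommRing R] (ω : R) (v : ℕ × ℕ × ℕ × ℕ) : R :=
  (v.1 : R) + (v.2.1 : R) * ω + (v.2.2.1 : R) * ω ^ 2 + (v.2.2.2 : R) * ω ^ 3

theorem cast_mod {R : Type*} [CommRing R] {r : ℕ} (hr : (r : R) = 0) (a : ℕ) : ((a % r : ℕ) : R) = a := by
  conv_rhs => rw [← Nat.div_add_mod a r]
  rw [Nat.cast_add, Nat.cast_mul, hr, zero_mul, zero_add]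

theorem vs_zero {r : ℕ} : ∀ k, (vs 2 r k).2.2.1 = 0 ∧ (vs 2 r k).2.2.2 = 0
  | 0 => ⟨rfl, rfl⟩
  | k + 1 => by
    rw [vs, stp, if_pos rfl]
    exact ⟨rfl, rfl⟩

theorem val_vs {R : Type*} [CommRing R] {r d : ℕ} (hr : (r : R) = 0) (hd : d = 2 ∨ d = 4) {ω : R}
    (hω : ω ^ d = 1 + ω) (k : ℕ) : val ω (vs d r k) = ω ^ k := by
  induction k with
  | zero => simp [vs, val]
  | succ k ih =>
    rw [pow_succ, ← ih, vs, stp, val, val]
    rcases hd with rfl | rfl
    · rw [if_pos rfl, (vs_zero k).1, (vs_zero k).2]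
      simp only [cast_mod hr, Nat.cast_zero, Nat.cast_add]
      linear_combination (-((vs 2 r k).2.1 : R)) * hω
    · rw [if_neg (by norm_num)]
      simp only [cast_mod hr, Nat.cast_add]
      linear_combination (-((vs 4 r k).2.2.2 : R)) * hω

/-- the check of the table of Zech logarithms -/
def zchk (d r n T : ℕ) : Bool :=
  (List.range n).all fun k =>
    match zt T k with
    | 0 => decide (((vs d r k).1 + 1) % r = 0) && decide ((vs d r k).2 = (0, 0, 0))
    | j + 1 => decide (((vs d r k).1 + 1) % r = (vs d r j).1) && decide ((vs d r k).2 = (vs d r j).2)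

theorem zchk_sound {F : Type*} [Field F] {r d n T : ℕ} (hr : (r : F) = 0) (hd : d = 2 ∨ d = 4) {ω : F}
    (hω : ω ^ d = 1 + ω) (h : zchk d r n T = true) (k : ℕ) (hk : k < n) : 1 + ω ^ k = ev ω (zt T k) := by
  have h1 := List.all_eq_true.1 h k (List.mem_range.2 hk)
  rcases hz : zt T k with _ | j
  · simp only [hz, Bool.and_eq_true, decide_eq_true_eq] at h1
    rw [← val_vs hr hd hω k, val, ev_zero, h1.2]
    have h2 := cast_mod hr ((vs d r k).1 + 1)
    rw [h1.1, Nat.cast_add, Nat.cast_zero, Nat.cast_one] at h2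
    simp only [Nat.cast_zero]
    linear_combination -h2
  · simp only [hz, Bool.and_eq_true, decide_eq_true_eq] at h1
    rw [← val_vs hr hd hω k, ev_succ, ← val_vs hr hd hω j, val, val, h1.2]
    have h2 := cast_mod hr ((vs d r k).1 + 1)
    rw [h1.1, Nat.cast_add, Nat.cast_one] at h2
    linear_combination -h2

/-- the polynomial `X ^ d - X - 1` has a root -/
theorem exists_root {F : Type*} [Field F] [Fintype F] {r d n : ℕ} [Fact r.Prime] [CharP F r]
    (hd : d = 2 ∨ d = 4) (hF : Fintype.card F = n + 1) (hv : vs d r n = (1, 0, 0, 0)) :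
    ∃ ω : F, ω ^ d = 1 + ω := by
  let _ : Algebra (ZMod r) F := ZMod.algebra F r
  set p : (ZMod r)[X] := X ^ d - X - 1 with hp
  have hd1 : (X + C (1 : ZMod r)).degree < (d : WithBot ℕ) := by
    refine (Polynomial.degree_X_add_C (1 : ZMod r)).trans_lt ?_
    rcases hd with rfl | rfl <;> norm_num
  have hpm : p.Monic := by
    rw [hp, sub_sub, add_comm, ← C_1, add_comm]
    exact Polynomial.monic_X_pow_sub hd1
  have hpd : p.natDegree = d := by
    rw [hp, sub_sub, ← C_1]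
    apply Polynomial.natDegree_eq_of_degree_eq_some
    rw [Polynomial.degree_sub_eq_left_of_degree_lt (by rwa [Polynomial.degree_X_pow]), Polynomial.degree_X_pow]
  have hdvd : p ∣ X ^ n - 1 := by
    rw [← AdjoinRoot.mk_eq_zero]
    have hr0 : ((r : ℕ) : AdjoinRoot p) = 0 := by
      rw [← map_natCast (AdjoinRoot.of p) r, ZMod.natCast_self, map_zero]
    have h1 : (AdjoinRoot.root p) ^ d = 1 + AdjoinRoot.root p := by
      have h2 : AdjoinRoot.mk p (X ^ d - X - 1) = 0 := AdjoinRoot.mk_self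
      rw [map_sub, map_sub, map_pow, AdjoinRoot.mk_X, map_one] at h2
      linear_combination h2
    have h3 := val_vs hr0 hd h1 n
    rw [hv, val] at h3
    rw [map_sub, map_pow, AdjoinRoot.mk_X, map_one, ← h3]
    simp
  set P : F[X] := p.map (algebraMap (ZMod r) F) with hP
  have hPd : P.natDegree = d := by rw [hP, hpm.natDegree_map, hpd]
  have hPQ : P ∣ X ^ Fintype.card F - X := by
    have h1 : P ∣ X ^ n - 1 := by
      have h2 := Polynomial.map_dvd (algebraMap (ZMod r) F) hdvd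
      simpa using h2
    have h2 : (X ^ Fintype.card F - X : F[X]) = (X ^ n - 1) * X := by
      rw [hF, pow_succ]
      ring
    rw [h2]
    exact h1.mul_right X
  obtain ⟨H, hH⟩ := hPQ
  have hcard : 1 < Fintype.card F := Fintype.one_lt_card
  have hQ0 : (X ^ Fintype.card F - X : F[X]) ≠ 0 := FiniteField.X_pow_card_sub_X_ne_zero F hcard
  have hPH : P * H ≠ 0 := by rw [← hH]; exact hQ0
  have hroots := FiniteField.roots_X_pow_card_sub_X F
  have hdeg : (X ^ Fintype.card F - X : F[X]).natDegree = Fintype.card F :=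
    FiniteField.X_pow_card_sub_X_natDegree_eq F hcard
  by_contra hcon
  push Not at hcon
  have hPr : P.roots = 0 := by
    rw [Multiset.eq_zero_iff_forall_notMem]
    intro x hx
    have h1 := (Polynomial.mem_roots'.1 hx).2
    rw [Polynomial.IsRoot, hP, hp] at h1
    simp at h1
    exact hcon x (by linear_combination h1)
  rw [hH, Polynomial.roots_mul hPH, hPr, zero_add] at hroots
  have h1 : Fintype.card F ≤ H.natDegree := by
    have h2 := Polynomial.card_roots' H
    rw [hroots] at h2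
    exact h2
  rw [hH, Polynomial.natDegree_mul (left_ne_zero_of_mul hPH) (right_ne_zero_of_mul hPH), hPd] at hdeg
  omega

/-- the order of `ω` -/
theorem isPrimitive {F : Type*} [Field F] {n q T m1 : ℕ} {ω : F} (h : Cd n q T m1 ω)
    (hn : ∀ l : ℕ, l.Prime → l ∣ n → ∃ j < n, zt T j = n / l + 1) : IsPrimitiveRoot ω n := by
  rw [IsPrimitiveRoot.iff_orderOf]
  apply orderOf_eq_of_pow_and_pow_div_prime h.npos h.pow
  intro l hl hln h1
  obtain ⟨j, hj, hz⟩ := hn l hl hln
  have h2 := h.z j hj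
  rw [hz, ev_succ, h1] at h2
  have h3 : ω ^ j = 0 := by linear_combination h2
  exact pow_ne_zero _ h.ne h3

/-- the data of a small field -/
theorem exists_cd {F : Type*} [Field F] [Fintype F] {r d n q T m1 : ℕ} [Fact r.Prime] [CharP F r]
    (hd : d = 2 ∨ d = 4) (hF : Fintype.card F = n + 1) (hv : vs d r n = (1, 0, 0, 0)) (hz : zchk d r n T = true)
    (hn0 : 0 < n) (hq0 : 0 < q) (hm : ∃ j < n, zt T j = 0 ∧ m1 = j + 1)
    (hn : ∀ l : ℕ, l.Prime → l ∣ n → ∃ j < n, zt T j = n / l + 1) :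
    ∃ ω : F, Cd n q T m1 ω ∧ IsPrimitiveRoot ω n := by
  obtain ⟨ω, hω⟩ := exists_root (F := F) hd hF hv
  have hr : (r : F) = 0 := CharP.cast_eq_zero F r
  have h1 : Cd n q T m1 ω := by
    refine ⟨hn0, hq0, ?_, zchk_sound hr hd hω hz, ?_⟩
    · rw [← val_vs hr hd hω n, hv, val]
      simp
    · obtain ⟨j, hj, hj0, rfl⟩ := hm
      have h2 := zchk_sound hr hd hω hz j hj
      rw [hj0, ev_zero] at h2
      rw [ev_succ]
      linear_combination h2
  exact ⟨ω, h1, isPrimitive h1 hn⟩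

/-- Zech logarithms of the field with `9` elements, `ω ^ 2 = 1 + ω` -/
def T3 : ℕ := 0x206040007080305

/-- traces of the elements of order 7 -/
def S3 : List ℕ := [6, 8]

/-- the matrices -/
def L3 : List M3 := [⟨8, 1, 4, 7, 1, 1, 3, 0, 5⟩, ⟨7, 3, 6, 2, 7, 0, 3, 5, 8⟩, ⟨3, 3, 3, 3, 2, 8, 3, 8, 4⟩, ⟨3, 0, 1, 8, 5, 6, 7, 8, 2⟩]

theorem chk3 : chk 8 3 T3 5 S3 L3 = true := by decide +kernel

theorem chs3 : (S3.all fun t => ch 8 T3 t (mulc 8 5 (barc 8 3 t)) 7 1 0 0) = true := by decide +kernel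

/-- Zech logarithms of the field with `16` elements, `ω ^ 4 = 1 + ω` -/
def T4 : ℕ := 0x4070c0d0608030a0e0b020f090500

/-- traces of the elements of order 13 -/
def S4 : List ℕ := [8, 12, 14, 15]

/-- the matrices -/
def L4 : List M3 := [⟨10, 11, 1, 13, 2, 10, 12, 9, 5⟩, ⟨15, 7, 9, 15, 5, 2, 2, 10, 5⟩, ⟨1, 3, 12, 6, 10, 11, 4, 0, 9⟩, ⟨8, 7, 11, 11, 6, 15, 9, 5, 5⟩, ⟨13, 12, 10, 11, 6, 13, 5, 9, 11⟩]

theorem chk4 : chk 15 4 T4 1 S4 L4 = true := by decide +kernel

theorem chs4 : (S4.all fun t => ch 15 T4 t (mulc 15 1 (barc 15 4 t)) 13 1 0 0) = true := by decide +kernel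

/-- Zech logarithms of the field with `81` elements, `ω ^ 4 = 1 + ω` -/
def T9 : ℕ := 0x4170a321643110c1c3d4c44202e402b3027240b314a03223f09022c2115260f42344b2a28120e0035384d4e1e06132f45333e481d23083a1a10461f3739413b4f3c2d500747251418491b360d190529

/-- traces of the elements of order 73 -/
def S9 : List ℕ := [3, 5, 7, 8, 13, 15, 18, 19, 22, 29, 30, 37, 43, 47, 52, 54, 55, 59, 60, 64, 72, 74, 78, 80]

/-- the matrices -/
def L9 : List M3 := [⟨60, 52, 6, 22, 62, 64, 80, 46, 9⟩, ⟨12, 11, 23, 28, 65, 43, 38, 6, 45⟩, ⟨1, 14, 77, 32, 42, 48, 69, 24, 48⟩, ⟨6, 2, 46, 10, 35, 71, 46, 63, 39⟩, ⟨31, 11, 54, 74, 2, 70, 44, 77, 3⟩, ⟨62, 65, 33, 56, 29, 64, 80, 14, 6⟩, ⟨36, 23, 15, 42, 28, 46, 10, 70, 79⟩, ⟨79, 36, 70, 16, 52, 75, 9, 9, 38⟩, ⟨37, 7, 39, 46, 34, 54, 47, 33, 50⟩]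

theorem chk9 : chk 80 9 T9 41 S9 L9 = true := by decide +kernel

theorem chs9 : (S9.all fun t => ch 80 T9 t (mulc 80 41 (barc 80 9 t)) 73 1 0 0) = true := by decide +kernel

section

variable {F V : Type*} [Field F] [Fintype F] [AddCommGroup V] [Module F V] [FiniteDimensional F V]
  {q : ℕ} {σ : F →+* F} {B : V → V → F}

theorem pw_three_three (hB : HS 3 σ B) (hn : finrank F V = 3) {g : End F V} (hg : Isom B g)
    (hdet : LinearMap.det g = 1) (hns : ∀ c : F, g ≠ c • (1 : End F V)) : IsPw B 7 g := by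
  have hF : Fintype.card F = 3 ^ 2 := hB.card
  have hr : Fact (Nat.Prime 3) := ⟨by norm_num⟩
  have hc : CharP F 3 := charP_of_card_eq_prime_pow hF
  obtain ⟨ω, h1, h2⟩ := exists_cd (F := F) (r := 3) (d := 2) (n := 8) (q := 3) (T := T3) (m1 := 5) (Or.inl rfl)
    (by rw [hF]; norm_num) (by decide +kernel) (by decide +kernel) (by norm_num) (by norm_num)
    ⟨4, by norm_num, by decide +kernel, rfl⟩ (by
      intro l hl hln
      have h3 : l ∣ 2 ^ 3 := hln
      have h4 : l = 2 := (Nat.prime_dvd_prime_iff_eq hl Nat.prime_two).1 (hl.dvd_of_dvd_pow h3)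
      subst h4
      exact ⟨0, by norm_num, by decide +kernel⟩)
  exact pw_of_chk hB hn (by rw [hF]; norm_num) h2 (by norm_num) (by norm_num) h1 chk3 chs3 hg hdet hns

theorem pw_three_four (hB : HS 4 σ B) (hn : finrank F V = 3) {g : End F V} (hg : Isom B g)
    (hdet : LinearMap.det g = 1) (hns : ∀ c : F, g ≠ c • (1 : End F V)) : IsPw B 13 g := by
  have hF : Fintype.card F = 2 ^ 4 := by rw [hB.card]; norm_num
  have hr : Fact (Nat.Prime 2) := ⟨by norm_num⟩
  have hc : CharP F 2 := charP_of_card_eq_prime_pow hF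
  obtain ⟨ω, h1, h2⟩ := exists_cd (F := F) (r := 2) (d := 4) (n := 15) (q := 4) (T := T4) (m1 := 1) (Or.inr rfl)
    (by rw [hF]; norm_num) (by decide +kernel) (by decide +kernel) (by norm_num) (by norm_num)
    ⟨0, by norm_num, by decide +kernel, rfl⟩ (by
      intro l hl hln
      have h3 : l ∣ 3 * 5 := hln
      rcases (hl.dvd_mul).1 h3 with h4 | h4
      · have h5 : l = 3 := (Nat.prime_dvd_prime_iff_eq hl (by norm_num)).1 h4
        subst h5
        exact ⟨10, by norm_num, by decide +kernel⟩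
      · have h5 : l = 5 := (Nat.prime_dvd_prime_iff_eq hl (by norm_num)).1 h4
        subst h5
        exact ⟨14, by norm_num, by decide +kernel⟩)
  exact pw_of_chk hB hn (by rw [hF]; norm_num) h2 (by norm_num) (by norm_num) h1 chk4 chs4 hg hdet hns

theorem pw_three_nine (hB : HS 9 σ B) (hn : finrank F V = 3) {g : End F V} (hg : Isom B g)
    (hdet : LinearMap.det g = 1) (hns : ∀ c : F, g ≠ c • (1 : End F V)) : IsPw B 73 g := by
  have hF : Fintype.card F = 3 ^ 4 := by rw [hB.card]; norm_num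
  have hr : Fact (Nat.Prime 3) := ⟨by norm_num⟩
  have hc : CharP F 3 := charP_of_card_eq_prime_pow hF
  obtain ⟨ω, h1, h2⟩ := exists_cd (F := F) (r := 3) (d := 4) (n := 80) (q := 9) (T := T9) (m1 := 41) (Or.inr rfl)
    (by rw [hF]; norm_num) (by decide +kernel) (by decide +kernel) (by norm_num) (by norm_num)
    ⟨40, by norm_num, by decide +kernel, rfl⟩ (by
      intro l hl hln
      have h3 : l ∣ 2 ^ 4 * 5 := hln
      rcases (hl.dvd_mul).1 h3 with h4 | h4
      · have h5 : l = 2 := (Nat.prime_dvd_prime_iff_eq hl Nat.prime_two).1 (hl.dvd_of_dvd_pow h4)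
        subst h5
        exact ⟨0, by norm_num, by decide +kernel⟩
      · have h5 : l = 5 := (Nat.prime_dvd_prime_iff_eq hl (by norm_num)).1 h4
        subst h5
        exact ⟨73, by norm_num, by decide +kernel⟩)
  exact pw_of_chk hB hn (by rw [hF]; norm_num) h2 (by norm_num) (by norm_num) h1 chk9 chs9 hg hdet hns

end

end Cfsg.Agent.H876.PwU3
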