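import Cfsg.Agent.H876.PwU3.Crit
import Cfsg.Agent.H876.PwU3.Field
import Cfsg.Agent.H700.PwU.Row
import Cfsg.Agent.H346.Pw.TwoU
import Cfsg.Agent.H335.Pw.Own
import Cfsg.Agent.S0283

/-!
# S2465: the row `PSU_3(q)` (helper876)
-/

set_option autoImplicit false

namespace Cfsg.Agent.H876.PwU3

open Module Cfsg.Agent.H951 Cfsg.Agent.H98.Ore Cfsg.Agent.H700.PwU Cfsg.Agent.H78.Pw
open Cfsg.Agent.H514.DP (PW PE IsPE)

/-- from isometries to `SU_n(q)` -/
theorem su_of_isPw {F : Type*} [Field F] [Fintype F] {n q l : ℕ} (g : Cfsg.SU n F q)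
    (h : IsPw (Cfsg.hermForm n F q) l (Matrix.toLin' ((g : Matrix.SpecialLinearGroup (Fin n) F) : Matrix (Fin n) (Fin n) F))) :
    ∃ a b : Cfsg.SU n F q, g = a * b ∧ (∃ c, orderOf a ∣ l ^ c) ∧ ∃ c, orderOf b ∣ l ^ c := by
  obtain ⟨z, h, hz, hh, ⟨c, hc⟩, ⟨d, hd⟩, heq⟩ := h
  have e1 : ∀ x y : Cfsg.SU n F q, Matrix.toLin' (((x * y : Cfsg.SU n F q) : Matrix.SpecialLinearGroup (Fin n) F) :
      Matrix (Fin n) (Fin n) F) = Matrix.toLin' ((x : Matrix.SpecialLinearGroup (Fin n) F) : Matrix (Fin n) (Fin n) F) *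
        Matrix.toLin' ((y : Matrix.SpecialLinearGroup (Fin n) F) : Matrix (Fin n) (Fin n) F) := by
    intro x y
    rw [Module.End.mul_eq_comp, ← Matrix.toLin'_mul]
    rfl
  have e2 : ∀ (x : Cfsg.SU n F q) (k : ℕ), Matrix.toLin' (((x ^ k : Cfsg.SU n F q) :
      Matrix.SpecialLinearGroup (Fin n) F) : Matrix (Fin n) (Fin n) F) =
        Matrix.toLin' ((x : Matrix.SpecialLinearGroup (Fin n) F) : Matrix (Fin n) (Fin n) F) ^ k := by
    intro x k
    induction k with
    | zero =>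
      rw [pow_zero, pow_zero]
      exact Matrix.toLin'_one
    | succ k ih => rw [pow_succ, e1, ih, pow_succ]
  have hmk : ∀ x : (Fin n → F) ≃ₗ[F] (Fin n → F), x ∈ Cfsg.Agent.H98.Ore.SGr (Cfsg.hermForm n F q) →
      ∃ y : Cfsg.SU n F q, Matrix.toLin' ((y : Matrix.SpecialLinearGroup (Fin n) F) : Matrix (Fin n) (Fin n) F) =
        (x : (Fin n → F) →ₗ[F] (Fin n → F)) ∧ orderOf y ∣ orderOf x := by
    intro x hx
    obtain ⟨hx1, hxd⟩ := Cfsg.Agent.H98.Ore.mem_SGr.1 hx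
    let y₀ : Matrix.SpecialLinearGroup (Fin n) F := ⟨LinearMap.toMatrix' (x : (Fin n → F) →ₗ[F] (Fin n → F)), by
      rw [LinearMap.det_toMatrix', hxd]⟩
    have h1 : Matrix.toLin' (y₀ : Matrix (Fin n) (Fin n) F) = (x : (Fin n → F) →ₗ[F] (Fin n → F)) :=
      Matrix.toLin'_toMatrix' _
    refine ⟨⟨y₀, Cfsg.Agent.H950.mem_SU_of_isom (by rw [h1]; exact hx1)⟩, h1, ?_⟩
    rw [orderOf_dvd_iff_pow_eq_one]
    apply Subtype.ext
    apply Subtype.ext
    apply Matrix.toLin'.injective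
    refine (e2 _ _).trans ?_
    rw [h1]
    have h2 : ∀ k : ℕ, ((x : (Fin n → F) →ₗ[F] (Fin n → F)) : Module.End F (Fin n → F)) ^ k =
        ((x ^ k : (Fin n → F) ≃ₗ[F] (Fin n → F)) : (Fin n → F) →ₗ[F] (Fin n → F)) := by
      intro k
      induction k with
      | zero => rfl
      | succ k ih => rw [pow_succ, ih, pow_succ]; rfl
    refine (h2 _).trans ?_
    rw [pow_orderOf_eq_one]
    exact Matrix.toLin'_one.symm
  obtain ⟨a, ha, ha'⟩ := hmk z hz
  obtain ⟨b, hb, hb'⟩ := hmk h hh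
  refine ⟨a, b, ?_, ⟨c, ha'.trans hc⟩, ⟨d, hb'.trans hd⟩⟩
  apply Subtype.ext
  apply Subtype.ext
  apply Matrix.toLin'.injective
  refine Eq.trans ?_ (e1 a b).symm
  rw [ha, hb]
  apply LinearMap.ext
  intro v
  exact heq v

/-- from nonscalar isometries of dimension three to `PSU_3(q)` -/
theorem all_of_isPw {F : Type*} [Field F] [Fintype F] {q N : ℕ}
    (h : ∀ g : Module.End F (Fin 3 → F), Isom (Cfsg.hermForm 3 F q) g → LinearMap.det g = 1 →
      (∀ c : F, g ≠ c • (1 : Module.End F (Fin 3 → F))) → ∃ l : ℕ, l.Coprime N ∧ IsPw (Cfsg.hermForm 3 F q) l g) :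
    All N (Cfsg.PSU 3 F q) := by
  intro g
  obtain ⟨x, rfl⟩ := QuotientGroup.mk_surjective g
  by_cases hs : ∃ c : F, Matrix.toLin' ((x : Matrix.SpecialLinearGroup (Fin 3) F) : Matrix (Fin 3) (Fin 3) F) =
      c • (1 : Module.End F (Fin 3 → F))
  · obtain ⟨c, hc⟩ := hs
    have hx : x ∈ Subgroup.center (Cfsg.SU 3 F q) := by
      rw [Subgroup.mem_center_iff]
      intro y
      apply Subtype.ext
      apply Subtype.ext
      apply Matrix.toLin'.injective
      have e1 : ∀ x y : Cfsg.SU 3 F q, Matrix.toLin' (((x * y : Cfsg.SU 3 F q) :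
          Matrix.SpecialLinearGroup (Fin 3) F) : Matrix (Fin 3) (Fin 3) F) =
          Matrix.toLin' ((x : Matrix.SpecialLinearGroup (Fin 3) F) : Matrix (Fin 3) (Fin 3) F) *
            Matrix.toLin' ((y : Matrix.SpecialLinearGroup (Fin 3) F) : Matrix (Fin 3) (Fin 3) F) := by
        intro x y
        rw [Module.End.mul_eq_comp, ← Matrix.toLin'_mul]
        rfl
      refine (e1 y x).trans ((e1 x y).trans ?_).symm
      rw [hc, smul_mul_assoc, one_mul, mul_smul_comm, mul_one]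
    rw [show (QuotientGroup.mk x : Cfsg.PSU 3 F q) = 1 from (QuotientGroup.eq_one_iff x).2 hx]
    exact Pr.one N
  · push Not at hs
    have hdet : LinearMap.det (Matrix.toLin' ((x : Matrix.SpecialLinearGroup (Fin 3) F) :
        Matrix (Fin 3) (Fin 3) F)) = 1 := by
      rw [LinearMap.det_toLin']
      exact x.1.2
    obtain ⟨l, hl, hpw⟩ := h _ (Cfsg.Agent.H950.isom_of_SU x.2) hdet hs
    obtain ⟨a, b, hab, ⟨c, hc⟩, d, hd⟩ := su_of_isPw x hpw
    have h1 : Pr N x := ⟨a, b, hab, Nat.Coprime.of_dvd_left hc (hl.pow_left _),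
      Nat.Coprime.of_dvd_left hd (hl.pow_left _)⟩
    exact h1.map (QuotientGroup.mk' (Subgroup.center (Cfsg.SU 3 F q)))

/-- an element of the field with `q` elements of order `m` -/
theorem exists_elt {F : Type*} [Field F] [Fintype F] {q m : ℕ} (hF : Fintype.card F = q ^ 2) (hm : m ∣ q - 1)
    (hm2 : 2 < m) : ∃ x : F, x ≠ 0 ∧ x ^ q = x ∧ x ^ 2 ≠ 1 ∧ x ^ m = 1 := by
  have hq : 1 < q := by
    by_contra h
    have h1 : q ^ 2 ≤ 1 := by
      have : q ≤ 1 := by omega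
      calc q ^ 2 ≤ 1 ^ 2 := Nat.pow_le_pow_left this 2
        _ = 1 := one_pow 2
    have h2 : 1 < Fintype.card F := Fintype.one_lt_card
    omega
  classical
  obtain ⟨ω, hω⟩ := IsCyclic.exists_generator (α := Fˣ)
  have hord : orderOf ω = q ^ 2 - 1 := by
    rw [orderOf_eq_card_of_forall_mem_zpowers hω, Nat.card_eq_fintype_card, Fintype.card_units, hF]
  have hmq : m ∣ q ^ 2 - 1 := by
    have h1 : q ^ 2 - 1 = (q + 1) * (q - 1) := by
      have := Nat.sq_sub_sq q 1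
      rwa [one_pow] at this
    rw [h1]
    exact hm.mul_left _
  have hpos : 0 < q ^ 2 - 1 := by
    have : 2 ^ 2 ≤ q ^ 2 := Nat.pow_le_pow_left hq 2
    omega
  obtain ⟨k, hk⟩ := hmq
  have hk0 : k ≠ 0 := by
    rintro rfl
    omega
  have hom : orderOf (ω ^ k) = m := by
    rw [orderOf_pow' ω hk0, hord, hk, Nat.gcd_eq_right (Dvd.intro_left m rfl)]
    exact Nat.mul_div_cancel m (Nat.pos_of_ne_zero hk0)
  refine ⟨((ω ^ k : Fˣ) : F), Units.ne_zero _, ?_, ?_, ?_⟩
  · obtain ⟨j, hj⟩ := hm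
    have h1 : (ω ^ k) ^ (q - 1) = 1 := by
      rw [hj, pow_mul, ← hom, pow_orderOf_eq_one, one_pow]
    have h2 : (ω ^ k) ^ q = ω ^ k := by
      conv_lhs => rw [show q = (q - 1) + 1 by omega]
      rw [pow_succ, h1, one_mul]
    have h3 := congrArg Units.val h2
    rwa [Units.val_pow_eq_pow_val] at h3
  · intro h1
    have h2 : (ω ^ k) ^ 2 = 1 := by
      apply Units.ext
      rw [Units.val_pow_eq_pow_val, h1]
      rfl
    have h3 := orderOf_dvd_of_pow_eq_one h2
    rw [hom] at h3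
    exact absurd (Nat.le_of_dvd (by norm_num) h3) (by omega)
  · have h2 : (ω ^ k) ^ m = 1 := by
      conv_lhs => rw [← hom]
      exact pow_orderOf_eq_one _
    have h3 := congrArg Units.val h2
    rw [Units.val_pow_eq_pow_val] at h3
    exact h3

theorem hs_herm {F : Type*} [Field F] [Fintype F] (n : ℕ) {q : ℕ} (hF : Fintype.card F = q ^ 2) :
    HS q (Cfsg.Agent.H950.cj hF) (Cfsg.hermForm n F q) :=
  ⟨hF, Cfsg.Agent.H950.cj_apply hF, Cfsg.Agent.H950.frm_herm hF n,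
    fun _ hu => Cfsg.Agent.LieClassical.HermBasic.herm_nondeg hF hu⟩

/-- the main case -/
theorem all_of_dvd {F : Type*} [Field F] [Fintype F] {q N l s : ℕ} (hF : Fintype.card F = q ^ 2) (hl : l.Prime)
    (hlN : l.Coprime N) (hs : 1 ≤ s) (hls : 2 < l ^ s) (hd : l ^ s ∣ q - 1) : All N (Cfsg.PSU 3 F q) := by
  obtain ⟨x, hx0, hxq, hx2, hxl⟩ := exists_elt hF hd hls
  refine all_of_isPw fun g hg hdet hns => ⟨l, hlN, ?_⟩
  exact pw_three (hs_herm 3 hF) (Module.finrank_fin_fun F) hg hdet hns hx0 hxq hx2 hl hs hxl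

/-- own characteristic -/
theorem own_psu_three {F : Type*} [Field F] [Fintype F] {q r : ℕ} (hF : Fintype.card F = q ^ 2) (hr : r.Prime)
    (hr5 : 5 ≤ r) (hrq : r ∣ q) : All r (Cfsg.PSU 3 F q) := by
  have hq0 : 0 < q := by
    rcases Nat.eq_zero_or_pos q with h | h
    · rw [h] at hF
      exact absurd hF (by simp)
    · exact h
  have hq5 : 5 ≤ q := hr5.trans (Nat.le_of_dvd hq0 hrq)
  have key : ∀ l : ℕ, l.Prime → l ∣ q - 1 → l.Coprime r := by
    intro l hl hlq
    rw [Nat.coprime_primes hl hr]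
    rintro rfl
    have h1 := (Nat.dvd_sub hrq hlq)
    rw [show q - (q - 1) = 1 by omega] at h1
    exact hl.one_lt.ne' (Nat.dvd_one.1 h1)
  by_cases hodd : ∃ l : ℕ, l.Prime ∧ l ≠ 2 ∧ l ∣ q - 1
  · obtain ⟨l, hl, hl2, hlq⟩ := hodd
    have h2 := hl.two_le
    exact all_of_dvd hF hl (key l hl hlq) le_rfl (by rw [pow_one]; omega) (by rwa [pow_one])
  · push Not at hodd
    have h1 := Nat.eq_prime_pow_of_unique_prime_dvd (p := 2) (show q - 1 ≠ 0 by omega) (fun {d} hd hdq => by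
      by_contra h
      exact hodd d hd h hdq)
    have h2 : 2 ≤ (q - 1).primeFactorsList.length := by
      by_contra h
      have h3 : 2 ^ (q - 1).primeFactorsList.length ≤ 2 ^ 1 := Nat.pow_le_pow_right (by norm_num) (by omega)
      rw [← h1] at h3
      omega
    have h4 : 2 ^ 2 ∣ q - 1 := by
      rw [h1]
      exact pow_dvd_pow 2 h2
    exact all_of_dvd hF Nat.prime_two (key 2 Nat.prime_two ((dvd_pow_self 2 (by norm_num)).trans h4)) (by norm_num)
      (by norm_num) h4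

/-- powers of two -/
theorem exists_prime_two {f : ℕ} (hf : 3 ≤ f) : ∃ l : ℕ, l.Prime ∧ 5 ≤ l ∧ l ∣ 2 ^ f - 1 := by
  by_contra hcon
  push Not at hcon
  obtain ⟨g, rfl⟩ : ∃ g, f = g + 3 := ⟨f - 3, by omega⟩
  have h8 : 2 ^ (g + 3) = 8 * 2 ^ g := by rw [pow_add]; ring
  have hg : 1 ≤ 2 ^ g := Nat.one_le_two_pow
  have h1 := Nat.eq_prime_pow_of_unique_prime_dvd (p := 3) (n := 2 ^ (g + 3) - 1) (by omega) (fun {d} hd hdq => by
    have h2 := hd.two_le
    have h5 : d < 5 := by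
      by_contra h
      exact hcon d hd (by omega) hdq
    have h4 : d ≠ 4 := by
      rintro rfl
      exact absurd hd (by decide)
    have h22 : d ≠ 2 := by
      rintro rfl
      omega
    omega)
  have h2 : ∀ k : ℕ, 3 ^ k % 8 = 1 ∨ 3 ^ k % 8 = 3 := by
    intro k
    induction k with
    | zero => left; rfl
    | succ k ih =>
      rw [pow_succ]
      omega
  have h3 := h2 (2 ^ (g + 3) - 1).primeFactorsList.length
  rw [← h1] at h3
  omega

/-- powers of three -/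
theorem exists_prime_three {f : ℕ} (hf : 3 ≤ f) : ∃ l : ℕ, l.Prime ∧ 5 ≤ l ∧ l ∣ 3 ^ f - 1 := by
  by_contra hcon
  push Not at hcon
  have h27 : 3 ^ 3 ≤ 3 ^ f := Nat.pow_le_pow_right (by norm_num) hf
  have hpow : ∀ m : ℕ, m ≠ 0 → m ∣ 3 ^ f - 1 → ∃ k, m = 2 ^ k := by
    intro m hm0 hm
    refine ⟨_, Nat.eq_prime_pow_of_unique_prime_dvd (p := 2) hm0 (fun {d} hd hdq => ?_)⟩
    have h2 := hd.two_le
    have h5 : d < 5 := by
      by_contra h
      exact hcon d hd (by omega) (hdq.trans hm)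
    have h4 : d ≠ 4 := by
      rintro rfl
      exact absurd hd (by decide)
    have h3 : d ≠ 3 := by
      rintro rfl
      have h6 : 3 ∣ 3 ^ f := dvd_pow_self 3 (by omega)
      have h7 := hdq.trans hm
      omega
    omega
  have h2 : ∀ k : ℕ, 3 ^ k % 8 = 1 ∨ 3 ^ k % 8 = 3 := by
    intro k
    induction k with
    | zero => left; rfl
    | succ k ih =>
      rw [pow_succ]
      omega
  have hsmall : ∀ k x : ℕ, x = 2 ^ k → x % 8 ≠ 0 → x ≤ 4 := by
    intro k x hx h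
    by_contra hcon'
    have h3 : 3 ≤ k := by
      by_contra h4
      have h5 : 2 ^ k ≤ 2 ^ 2 := Nat.pow_le_pow_right (by norm_num) (by omega)
      omega
    obtain ⟨j, rfl⟩ : ∃ j, k = j + 3 := ⟨k - 3, by omega⟩
    rw [pow_add] at hx
    omega
  rcases Nat.even_or_odd' f with ⟨g, hg | hg⟩
  · -- `3 ^ g + 1` divides
    have h3 : 3 ^ g + 1 ∣ 3 ^ f - 1 := by
      refine ⟨3 ^ g - 1, ?_⟩
      have h4 := Nat.sq_sub_sq (3 ^ g) 1
      rw [one_pow, ← pow_mul, mul_comm g 2, ← hg] at h4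
      exact h4
    obtain ⟨k, hk⟩ := hpow _ (Nat.succ_ne_zero _) h3
    have h5 := hsmall k _ hk (by have := h2 g; omega)
    have h6 : 3 ^ 2 ≤ 3 ^ g := Nat.pow_le_pow_right (by norm_num) (by omega)
    omega
  · obtain ⟨k, hk⟩ := hpow (3 ^ f - 1) (by omega) dvd_rfl
    have h9 : 3 ^ f % 8 = 3 := by
      rw [hg, pow_succ, pow_mul]
      have h10 : ∀ j : ℕ, (3 ^ 2) ^ j % 8 = 1 := by
        intro j
        induction j with
        | zero => rfl
        | succ j ih => rw [pow_succ]; omega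
      have := h10 g
      omega
    have h5 := hsmall k _ hk (by omega)
    omega

theorem coprime_six {l : ℕ} (hl : l.Prime) (hl5 : 5 ≤ l) : l.Coprime 6 := by
  rw [hl.coprime_iff_not_dvd]
  intro h
  have h1 := Nat.le_of_dvd (by norm_num) h
  have h2 : l = 5 ∨ l = 6 := by omega
  rcases h2 with rfl | rfl
  · revert h; decide
  · revert hl; decide

/-- **order prime to six** -/
theorem six_psu_three {F : Type*} [Field F] [Fintype F] {q r : ℕ} [hr : Fact r.Prime] [CharP F r]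
    (hF : Fintype.card F = q ^ 2) (hr5 : r < 5) (hq : q ≠ 2) : All 6 (Cfsg.PSU 3 F q) := by
  have hr23 : r = 2 ∨ r = 3 := by
    have h2 := hr.out.two_le
    have h4 : r ≠ 4 := by
      intro h
      exact absurd hr.out (by rw [h]; decide)
    omega
  obtain ⟨k, hk, hkF⟩ := FiniteField.card F r
  have hqd : q ∣ r ^ (k : ℕ) := by
    rw [← hkF, hF]
    exact dvd_pow_self q (by norm_num)
  obtain ⟨f, -, hf⟩ := (Nat.dvd_prime_pow hr.out).1 hqd
  have hf0 : f ≠ 0 := by
    rintro rfl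
    rw [hf, pow_zero, one_pow] at hF
    have h1 : 1 < Fintype.card F := Fintype.one_lt_card
    omega
  have hB : HS q (Cfsg.Agent.H950.cj hF) (Cfsg.hermForm 3 F q) := hs_herm 3 hF
  by_cases hf3 : 3 ≤ f
  · obtain ⟨l, hl, hl5, hlq⟩ : ∃ l : ℕ, l.Prime ∧ 5 ≤ l ∧ l ∣ q - 1 := by
      rcases hr23 with h | h
      · rw [hf, h]
        exact exists_prime_two hf3
      · rw [hf, h]
        exact exists_prime_three hf3
    exact all_of_dvd hF hl (coprime_six hl hl5) le_rfl (by rw [pow_one]; omega) (by rwa [pow_one])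
  · have hq349 : q = 3 ∨ q = 4 ∨ q = 9 := by
      rcases hr23 with h | h <;> rw [h] at hf
      · have : f = 1 ∨ f = 2 := by omega
        rcases this with rfl | rfl
        · exact absurd hf (by norm_num; exact hq)
        · right; left; rw [hf]; norm_num
      · have : f = 1 ∨ f = 2 := by omega
        rcases this with rfl | rfl
        · left; rw [hf]; norm_num
        · right; right; rw [hf]; norm_num
    rcases hq349 with rfl | rfl | rfl
    · exact all_of_isPw fun g hg hdet hns => ⟨7, by decide,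
        pw_three_three hB (Module.finrank_fin_fun F) hg hdet hns⟩
    · exact all_of_isPw fun g hg hdet hns => ⟨13, by decide,
        pw_three_four hB (Module.finrank_fin_fun F) hg hdet hns⟩
    · exact all_of_isPw fun g hg hdet hns => ⟨73, by decide,
        pw_three_nine hB (Module.finrank_fin_fun F) hg hdet hns⟩

/-- **the row `PSU_3(q)`** -/
theorem pw_psu_three (F : Type) [Field F] [Fintype F] (q : ℕ) (hF : Fintype.card F = q ^ 2) (hq : q ≠ 2) :
    Pw (Cfsg.PSU 3 F q) := by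
  have hsi : IsSimpleGroup (Cfsg.PSU 3 F q) := Cfsg.Agent.S0283.result hF 3 le_rfl (fun h => hq h.2)
  obtain ⟨r, hc⟩ := CharP.exists F
  have hr : Fact r.Prime := ⟨CharP.char_is_prime F r⟩
  have hPW : PW r 2 (Cfsg.PSU 3 F q) := Cfsg.Agent.H346.PwU.pw_psu
    ⟨F, inferInstance, inferInstance, hc, 3, q, hF, le_rfl, fun h => hq h.2, ⟨MulEquiv.refl _⟩⟩
  have h' : ∀ g : Cfsg.PSU 3 F q, ∃ a b, g = a * b ∧ (∃ k, a ^ r ^ k = 1) ∧ ∃ k, b ^ r ^ k = 1 := by
    intro g
    obtain ⟨a, b, ha, ⟨c, d, hc, hd, hcd⟩, hab⟩ := hPW g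
    have hd1 : d = 1 := hd
    rw [hd1, mul_one] at hcd
    rw [← hcd] at hab
    exact ⟨a, c, hab.symm, ha, hc⟩
  have hrq : r ∣ q := by
    obtain ⟨k, -, hk⟩ := FiniteField.card F r
    have h1 : r ∣ q ^ 2 := by
      rw [← hF, hk]
      exact dvd_pow_self r k.ne_zero
    exact hr.out.dvd_of_dvd_pow h1
  rcases lt_or_ge r 5 with h5 | h5
  · exact Cfsg.Agent.H335.Pw.pw_of_six hr.out h5 h' (six_psu_three hF h5 hq)
  · exact Cfsg.Agent.H335.Pw.pw_of_own hr.out h5 h' (own_psu_three hF hr.out h5 hrq)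

end Cfsg.Agent.H876.PwU3
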