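import Cfsg.Agent.H876.PwU3.Sound

/-!
# `SU_3(q)`, `q = 3, 4, 9`: products of two elements of order `7`, `13`, `73` (helper876)
-/

set_option autoImplicit false
set_option linter.unusedSectionVars false

namespace Cfsg.Agent.H876.PwU3

open Module Matrix Cfsg.Agent.H951 Cfsg.Agent.H98.Ore Cfsg.Agent.H700.PwU

section

variable {F : Type*} [Field F]

theorem gram_apply {σ : F →+* F} (M : Matrix (Fin 3) (Fin 3) F) (i j : Fin 3) :
    (Mᵀ * JJ F * M.map σ) i j = M 0 i * σ (M 2 j) + M 1 i * σ (M 1 j) + M 2 i * σ (M 0 j) := by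
  simp only [Matrix.mul_apply, Fin.sum_univ_three, Matrix.map_apply, Matrix.transpose_apply, JJ, Matrix.of_apply,
    Matrix.cons_val', Matrix.cons_val_zero, Matrix.cons_val_one, Matrix.cons_val]
  ring

/-- the normal form -/
theorem normal_form {σ : F →+* F} (hs : ∀ a, σ (σ a) = a) {M : Matrix (Fin 3) (Fin 3) F} (h0 : M 0 0 = 0)
    (h1 : M 1 0 = 0) (h2 : M 2 0 ≠ 0) (hM : Mᵀ * JJ F * M.map σ = JJ F) (hd : M.det = 1) :
    M 0 1 = 0 ∧ M 0 2 = (σ (M 2 0))⁻¹ ∧ M 1 1 = -(σ (M 2 0) * (M 2 0)⁻¹) ∧ M 1 2 = σ (M 2 1) * (M 2 0)⁻¹ ∧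
      M 2 0 * σ (M 2 2) + σ (M 2 0) * M 2 2 + M 2 1 * σ (M 2 1) = 0 := by
  have hσ0 : σ (M 2 0) ≠ 0 := (map_ne_zero σ).2 h2
  have hg : ∀ i j, M 0 i * σ (M 2 j) + M 1 i * σ (M 1 j) + M 2 i * σ (M 0 j) = JJ F i j := by
    intro i j
    rw [← gram_apply, hM]
  have e01 : M 0 1 = 0 := by
    have h := hg 1 0
    rw [h0, h1] at h
    simp [JJ] at h
    exact h.resolve_right h2
  have e02 : M 0 2 = (σ (M 2 0))⁻¹ := by
    have h := hg 2 0
    rw [h0, h1] at h
    simp [JJ] at h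
    exact eq_inv_of_mul_eq_one_left h
  have e11 : M 1 1 = -(σ (M 2 0) * (M 2 0)⁻¹) := by
    rw [Matrix.det_fin_three, h0, h1, e01, e02] at hd
    have h3 : -((σ (M 2 0))⁻¹ * M 1 1 * M 2 0) = 1 := by linear_combination hd
    field_simp at h3 ⊢
    linear_combination -h3
  have e12 : M 1 2 = σ (M 2 1) * (M 2 0)⁻¹ := by
    have h := hg 2 1
    rw [e01, e11, e02, map_neg, map_mul, hs, map_inv₀, map_zero] at h
    simp [JJ] at h
    field_simp at h ⊢
    linear_combination -h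
  refine ⟨e01, e02, e11, e12, ?_⟩
  have h := hg 2 2
  rw [e02, e12, map_mul, map_inv₀, hs, map_inv₀, hs] at h
  simp [JJ] at h
  field_simp at h
  linear_combination h

end

section

variable {F V : Type*} [Field F] [Fintype F] [AddCommGroup V] [Module F V] [FiniteDimensional F V]
  {q : ℕ} {σ : F →+* F} {B : V → V → F}

theorem exists_basis (hB : HS q σ B) (hn : finrank F V = 3) {w w' l : V} (hww : B w w = 0) (hd : B w w' = 1)
    (hww' : B w' w' = 0) (hll : B l l = 1) (hlw : B l w = 0) (hlw' : B l w' = 0) :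
    ∃ b : Basis (Fin 3) F V, b 0 = w ∧ b 1 = l ∧ b 2 = w' ∧ ∀ i j, B (b i) (b j) = JJ F i j := by
  have hd' : B w' w = 1 := by rw [hB.symm w w', hd, map_one]
  have hwl : B w l = 0 := by rw [hB.symm l w, hlw, map_zero]
  have hw'l : B w' l = 0 := by rw [hB.symm l w', hlw', map_zero]
  have hli : LinearIndependent F (![w, l, w'] : Fin 3 → V) := by
    rw [Fintype.linearIndependent_iff]
    intro a ha
    have h : ∀ y, a 0 * B w y + a 1 * B l y + a 2 * B w' y = 0 := by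
      intro y
      have h1 : B (∑ i, a i • (![w, l, w'] : Fin 3 → V) i) y = 0 := by rw [ha, hB.zero_left]
      rw [sum_left' hB, Fin.sum_univ_three] at h1
      exact h1
    have h1 := h w'
    have h2 := h l
    have h3 := h w
    rw [hd, hlw', hww'] at h1
    rw [hwl, hll, hw'l] at h2
    rw [hww, hlw, hd'] at h3
    intro i
    fin_cases i
    · simpa using h1
    · simpa using h2
    · simpa using h3
  let b := basisOfLinearIndependentOfCardEqFinrank hli (by rw [hn, Fintype.card_fin])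
  have hb : ∀ i, b i = (![w, l, w'] : Fin 3 → V) i := fun i =>
    congrFun (coe_basisOfLinearIndependentOfCardEqFinrank hli _) i
  refine ⟨b, hb 0, hb 1, hb 2, ?_⟩
  intro i j
  rw [hb, hb]
  fin_cases i <;> fin_cases j <;> simp [JJ, hww, hwl, hd, hlw, hll, hlw', hd', hw'l, hww']

end

/-! ### scaling -/

section

variable {F : Type*} [Field F] [Fintype F] {n q : ℕ} {ω : F}

theorem exists_log (hF : Fintype.card F = n + 1) (hω : IsPrimitiveRoot ω n) {x : F} (hx : x ≠ 0) :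
    ∃ i < n, ω ^ i = x := by
  have h1 : x ^ n = 1 := by
    have h2 := FiniteField.pow_card_sub_one_eq_one x hx
    rwa [hF, Nat.add_sub_cancel] at h2
  have hn : NeZero n := ⟨by
    rintro rfl
    have h3 : 1 < Fintype.card F := Fintype.one_lt_card
    omega⟩
  exact hω.eq_pow_of_pow_eq_one h1

theorem scale_norm (hF : Fintype.card F = n + 1) (hω : IsPrimitiveRoot ω n) (hq : 2 ≤ q) (hn : n = (q - 1) * (q + 1))
    {x : F} (hx : x ≠ 0) : ∃ y : F, y ≠ 0 ∧ ∃ k < q + 1, y ^ (q + 1) * x = ω ^ k := by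
  obtain ⟨j, -, rfl⟩ := exists_log hF hω hx
  have hω0 : ω ≠ 0 := by
    rintro rfl
    have h1 := hω.pow_eq_one
    rw [zero_pow (by rw [hn]; exact Nat.mul_ne_zero (by omega) (by omega))] at h1
    exact zero_ne_one h1
  refine ⟨ω ^ (j / (q + 1) * (q - 2)), pow_ne_zero _ hω0, j % (q + 1), Nat.mod_lt _ (by omega), ?_⟩
  obtain ⟨m, rfl⟩ : ∃ m, q = m + 2 := ⟨q - 2, by omega⟩
  have h2 : j / (m + 2 + 1) * (m + 2 - 2) * (m + 2 + 1) + j = n * (j / (m + 2 + 1)) + j % (m + 2 + 1) := by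
    conv_lhs => rw [← Nat.div_add_mod j (m + 2 + 1)]
    rw [Nat.mul_add_div (by omega), Nat.div_eq_of_lt (Nat.mod_lt _ (by omega)), add_zero, hn,
      show m + 2 - 2 = m by omega, show m + 2 - 1 = m + 1 by omega]
    ring
  rw [← pow_mul, ← pow_add, h2, pow_add, pow_mul, hω.pow_eq_one, one_pow, one_mul]

theorem scale_unit (hF : Fintype.card F = n + 1) (hω : IsPrimitiveRoot ω n) (hq : 2 ≤ q) (hn : n = (q - 1) * (q + 1))
    (x : F) : ∃ y : F, y ^ (q + 1) = 1 ∧ ∃ m < q, y * x = ev ω m := by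
  by_cases hx : x = 0
  · exact ⟨1, one_pow _, 0, by omega, by rw [hx, mul_zero]; rfl⟩
  obtain ⟨j, -, rfl⟩ := exists_log hF hω hx
  refine ⟨ω ^ ((q - 1) * (j / (q - 1) * q)), ?_, j % (q - 1) + 1, by have := Nat.mod_lt j (show 0 < q - 1 by omega); omega, ?_⟩
  · rw [← pow_mul, show (q - 1) * (j / (q - 1) * q) * (q + 1) = n * (j / (q - 1) * q) by rw [hn]; ring, pow_mul,
      hω.pow_eq_one, one_pow]
  · rw [ev_succ, ← pow_add]
    have h2 : (q - 1) * (j / (q - 1) * q) + j = n * (j / (q - 1)) + j % (q - 1) := by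
      conv_lhs => rw [← Nat.div_add_mod j (q - 1)]
      rw [Nat.mul_add_div (by omega), Nat.div_eq_of_lt (Nat.mod_lt _ (by omega)), add_zero, hn]
      ring
    rw [h2, pow_add, pow_mul, hω.pow_eq_one, one_pow, one_mul]

end

section

variable {F V : Type*} [Field F] [Fintype F] [AddCommGroup V] [Module F V] [FiniteDimensional F V]
  {n q T m1 : ℕ} {σ : F →+* F} {B : V → V → F} {ω : F}

/-- the normalised frame -/
theorem exists_frame (hB : HS q σ B) (hn : finrank F V = 3) (hF : Fintype.card F = n + 1)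
    (hω : IsPrimitiveRoot ω n) (hq : 2 ≤ q) (hnq : n = (q - 1) * (q + 1)) {g : End F V} (hg : Isom B g)
    (hns : ∀ c : F, g ≠ c • (1 : End F V)) :
    ∃ b : Basis (Fin 3) F V, (∀ i j, B (b i) (b j) = JJ F i j) ∧ ∃ k < q + 1, ∃ m < q, g (b 0) = ω ^ k • b 2 ∧
      B (g (b 1)) (b 0) = ev ω m := by
  obtain ⟨w₀, hw₀, hg₀⟩ := Cfsg.Agent.H951.OreU.exists_typeI hB hg hns
  obtain ⟨y, hy0, k, hk, hyk⟩ := scale_norm hF hω hq hnq hg₀
  have hω0 : ω ≠ 0 := by
    rintro rfl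
    have h1 := hω.pow_eq_one
    rw [zero_pow (by rw [hnq]; exact Nat.mul_ne_zero (by omega) (by omega))] at h1
    exact zero_ne_one h1
  have hγ : ω ^ k ≠ 0 := pow_ne_zero _ hω0
  set w := y • w₀ with hw
  have hww : B w w = 0 := by rw [hw, hB.smul_left, hB.smul_right, hw₀, mul_zero, mul_zero]
  have hgw : B (g w) w = ω ^ k := by
    rw [hw, map_smul, hB.smul_left, hB.smul_right, ← hyk, hB.sig, pow_succ]
    ring
  set w' := (ω ^ k)⁻¹ • g w with hw'
  have hgw' : g w = ω ^ k • w' := by rw [hw', smul_smul, mul_inv_cancel₀ hγ, one_smul]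
  have hd : B w w' = 1 := by
    rw [hw', hB.smul_right, hB.symm (g w) w, hgw, ← map_mul, inv_mul_cancel₀ hγ, map_one]
  have hww' : B w' w' = 0 := by
    rw [hw', hB.smul_left, hB.smul_right, hg, hww, mul_zero, mul_zero]
  have hfr : Fr B (fun _ : Unit => w) (fun _ : Unit => w') :=
    ⟨fun _ _ => hww, fun _ _ => by rw [hd, if_pos (Subsingleton.elim _ _)], fun _ _ => hww'⟩
  obtain ⟨l, hl⟩ := exists_FF_odd hB hfr (by rw [hn]; rfl)
  obtain ⟨z, hz, m, hm, hzm⟩ := scale_unit hF hω hq hnq (B (g (l 0)) w)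
  have hzz : z * σ z = 1 := by rw [hB.sig, ← pow_succ', hz]
  obtain ⟨b, hb0, hb1, hb2, hb⟩ := exists_basis hB hn hww hd hww' (l := z • l 0)
    (by rw [hB.smul_left, hB.smul_right, hl.ll, if_pos rfl, mul_one, hzz])
    (by rw [hB.smul_left, hl.lw 0 (), mul_zero]) (by rw [hB.smul_left, hl.lw' 0 (), mul_zero])
  refine ⟨b, hb, k, hk, m, hm, by rw [hb0, hb2, hgw'], ?_⟩
  rw [hb0, hb1, map_smul, hB.smul_left, hzm]

/-- the trace of a product -/
theorem trace_trc (h : Cd n q T m1 ω) (A : M3) {M : Matrix (Fin 3) (Fin 3) F} {α β ν γ μ ρ : ℕ}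
    (h00 : M 0 0 = 0) (h01 : M 0 1 = 0) (h02 : M 0 2 = ev ω α) (h10 : M 1 0 = 0) (h11 : M 1 1 = ev ω β)
    (h12 : M 1 2 = ev ω ν) (h20 : M 2 0 = ev ω γ) (h21 : M 2 1 = ev ω μ) (h22 : M 2 2 = ev ω ρ) :
    (toM ω A * M).trace = ev ω (trc n T A α β ν γ μ ρ) := by
  rw [trc]
  simp only [h.mul, h.add]
  rw [Matrix.trace, Fin.sum_univ_three]
  simp only [Matrix.diag_apply, Matrix.mul_apply, Fin.sum_univ_three, h00, h01, h02, h10, h11, h12, h20, h21, h22,
    toM, Matrix.of_apply, Matrix.cons_val', Matrix.cons_val_zero, Matrix.cons_val_one, Matrix.cons_val]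
  ring

/-- **the small fields** -/
theorem pw_of_chk (hB : HS q σ B) (hn : finrank F V = 3) (hF : Fintype.card F = n + 1)
    (hω : IsPrimitiveRoot ω n) (hq : 2 ≤ q) (hnq : n = (q - 1) * (q + 1)) (h : Cd n q T m1 ω) {S : List ℕ}
    {L : List M3} {N : ℕ} (hc : chk n q T m1 S L = true)
    (hS : (S.all fun t => ch n T t (mulc n m1 (barc n q t)) N 1 0 0) = true) {g : End F V} (hg : Isom B g)
    (hdet : LinearMap.det g = 1) (hns : ∀ c : F, g ≠ c • (1 : End F V)) : IsPw B N g := by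
  obtain ⟨b, hb, k, hk, m, hm, hgk, hgm⟩ := exists_frame hB hn hF hω hq hnq hg hns
  have hω0 : ω ≠ 0 := h.ne
  set M := LinearMap.toMatrix b b g with hMdef
  have hM : Mᵀ * JJ F * M.map σ = JJ F := toMatrix_isom hB b hb hg
  have hMd : M.det = 1 := by rw [hMdef, LinearMap.det_toMatrix, hdet]
  have hcol : ∀ i, M i 0 = ω ^ k * (if i = 2 then 1 else 0) := by
    intro i
    rw [hMdef, LinearMap.toMatrix_apply, hgk, map_smul, Finsupp.smul_apply, Basis.repr_self, Finsupp.single_apply,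
      smul_eq_mul]
    simp only [eq_comm (a := i)]
  have h00 : M 0 0 = 0 := by rw [hcol, if_neg (by decide), mul_zero]
  have h10 : M 1 0 = 0 := by rw [hcol, if_neg (by decide), mul_zero]
  have h20 : M 2 0 = ev ω (k + 1) := by rw [hcol, if_pos rfl, mul_one, ev_succ]
  have h21 : M 2 1 = ev ω m := by
    have h1 := form_eq hB b hb (g (b 1)) (b 0)
    rw [hgm] at h1
    rw [h1, hMdef, LinearMap.toMatrix_apply]
    simp [dotProduct, Matrix.mulVec, Fin.sum_univ_three, JJ]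
  obtain ⟨h01, h02, h11, h12, hrel⟩ := normal_form hB.ss h00 h10 (by rw [h20, ev_succ]; exact pow_ne_zero _ hω0) hM hMd
  obtain ⟨r, hr, hr22⟩ : ∃ r < n + 1, M 2 2 = ev ω r := by
    by_cases h0 : M 2 2 = 0
    · exact ⟨0, by omega, h0⟩
    · obtain ⟨i, hi, hi'⟩ := exists_log hF hω h0
      exact ⟨i + 1, by omega, hi'.symm⟩
  -- the certificate
  rw [chk, Bool.and_eq_true] at hc
  obtain ⟨hc1, hc2⟩ := hc
  rw [List.all_eq_true] at hc1 hc2
  have hc3 := hc2 k (List.mem_range.2 hk)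
  rw [List.all_eq_true] at hc3
  have hc4 := hc3 m (List.mem_range.2 hm)
  rw [List.all_eq_true] at hc4
  have hc5 := hc4 r (List.mem_range.2 hr)
  simp only [Bool.or_eq_true, Bool.not_eq_true'] at hc5
  have hcond : addc n T (addc n T (mulc n (k + 1) (barc n q r)) (mulc n (barc n q (k + 1)) r))
      (mulc n m (barc n q m)) = 0 := by
    apply h.ev_eq_zero
    rw [h.add, h.add, h.mul, h.mul, h.mul, h.bar, h.bar, h.bar, ← h20, ← hr22, ← h21, ← hB.sig, ← hB.sig, ← hB.sig]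
    exact hrel
  have hc6 : (L.any fun B => S.elem (trc n T B (barc n (n - 1) (barc n q (k + 1)))
      (mulc n m1 (mulc n (barc n q (k + 1)) (barc n (n - 1) (k + 1)))) (mulc n (barc n q m) (barc n (n - 1) (k + 1)))
      (k + 1) m r)) = true := by
    rcases hc5 with h1 | h1
    · exfalso
      rw [hcond] at h1
      revert h1
      decide
    · exact h1
  obtain ⟨A, hAL, hA⟩ := List.any_eq_true.1 hc6
  have hA1 := hc1 A hAL
  rw [Bool.and_eq_true, Bool.and_eq_true, decide_eq_true_eq, Nat.beq_eq, List.elem_eq_mem, decide_eq_true_eq] at hA1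
  rw [List.elem_eq_mem, decide_eq_true_eq] at hA
  obtain ⟨hAu, hAd, hAt⟩ := hA1
  -- the matrix `A`
  have hAu' : (toM ω A)ᵀ * JJ F * (toM ω A).map σ = JJ F := by
    have h1 := congrArg (toM ω) hAu
    rwa [h.mul3, h.mul3, toM_tr3, toM_J3, h.bar3 hB.sig] at h1
  have hAd' : (toM ω A).det = 1 := by rw [← h.det3, hAd, ev_one]
  have hAN : (toM ω A) ^ N = 1 := by
    refine pow_eq_one h hB.sig hB.ss hS hAu' hAd' hAt ?_
    rw [h.add, h.add, Matrix.trace, Fin.sum_univ_three]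
    simp only [Matrix.diag_apply, toM, Matrix.of_apply, Matrix.cons_val', Matrix.cons_val_zero, Matrix.cons_val_one,
      Matrix.cons_val]
    ring
  have hiv : ∀ x : F, ∀ i, x = ev ω (i + 1) → x⁻¹ = ev ω (barc n (n - 1) (i + 1)) := by
    rintro x i rfl
    rw [h.inv']
  have hgi : (M 2 0)⁻¹ = ev ω (barc n (n - 1) (k + 1)) := hiv _ _ h20
  have hgb : σ (M 2 0) = ev ω (barc n q (k + 1)) := by rw [hB.sig, h20, h.bar]
  have hgbi : (σ (M 2 0))⁻¹ = ev ω (barc n (n - 1) (barc n q (k + 1))) := by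
    rw [hgb, barc]
    rw [h.inv']
  have htr : (toM ω A * M).trace = ev ω (trc n T A (barc n (n - 1) (barc n q (k + 1)))
      (mulc n m1 (mulc n (barc n q (k + 1)) (barc n (n - 1) (k + 1)))) (mulc n (barc n q m) (barc n (n - 1) (k + 1)))
      (k + 1) m r) := by
    refine trace_trc h A h00 h01 (by rw [h02, hgbi]) h10 ?_ ?_ h20 h21 hr22
    · rw [h11, hgi, hgb, h.mul, h.mul, h.neg]
      ring
    · rw [h12, hgi, h21, hB.sig, h.mul, h.bar]
  have hAMu : (toM ω A * M)ᵀ * JJ F * (toM ω A * M).map σ = JJ F := by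
    rw [Matrix.transpose_mul, Matrix.map_mul]
    calc Mᵀ * (toM ω A)ᵀ * JJ F * ((toM ω A).map σ * M.map σ) =
        Mᵀ * ((toM ω A)ᵀ * JJ F * (toM ω A).map σ) * M.map σ := by simp only [Matrix.mul_assoc]
      _ = JJ F := by rw [hAu', hM]
  have hAMN : (toM ω A * M) ^ N = 1 :=
    pow_eq_one h hB.sig hB.ss hS hAMu (by rw [Matrix.det_mul, hAd', hMd, one_mul]) hA htr
  -- the isometries
  have hpow : ∀ (X : Matrix (Fin 3) (Fin 3) F), X ^ N = 1 → (Matrix.toLin b b X) ^ N = 1 := by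
    intro X hX
    have h1 : ∀ j : ℕ, (Matrix.toLin b b X) ^ j = Matrix.toLin b b (X ^ j) := by
      intro j
      induction j with
      | zero => rw [pow_zero, pow_zero, Matrix.toLin_one]; rfl
      | succ j ih => rw [pow_succ, ih, pow_succ, Matrix.toLin_mul b b b]; rfl
    rw [h1, hX, Matrix.toLin_one]
    rfl
  have hai : Isom B (Matrix.toLin b b (toM ω A)) := isom_toLin hB b hb hAu'
  set a : V ≃ₗ[F] V := LinearEquiv.ofInjectiveEndo _ (Isom.inj' hB hai) with ha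
  set G : V ≃ₗ[F] V := LinearEquiv.ofInjectiveEndo g (Isom.inj' hB hg) with hG
  have ha0 : (a : V →ₗ[F] V) = Matrix.toLin b b (toM ω A) := by ext v; rfl
  have hG0 : (G : V →ₗ[F] V) = g := by ext v; rfl
  have ham : a ∈ SGr B := mem_SGr.2 ⟨hai, by rw [ha0, LinearMap.det_toLin, hAd']⟩
  have hGm : G ∈ SGr B := mem_SGr.2 ⟨hg, by rw [hG0, hdet]⟩
  have hcoe : ∀ (x : V ≃ₗ[F] V) (j : ℕ), ((x ^ j : V ≃ₗ[F] V) : V →ₗ[F] V) = (x : Module.End F V) ^ j := by
    intro x j
    induction j with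
    | zero => rfl
    | succ j ih => rw [pow_succ, pow_succ, ← ih]; rfl
  have hord : ∀ x : V ≃ₗ[F] V, (x : Module.End F V) ^ N = 1 → orderOf x ∣ N ^ 1 := by
    intro x hx
    rw [pow_one, orderOf_dvd_iff_pow_eq_one]
    apply LinearEquiv.toLinearMap_injective
    refine (hcoe x N).trans (hx.trans ?_)
    rfl
  have haG : ((a * G : V ≃ₗ[F] V) : V →ₗ[F] V) = Matrix.toLin b b (toM ω A * M) := by
    rw [Matrix.toLin_mul b b b, hMdef, Matrix.toLin_toMatrix, ← ha0]
    rfl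
  refine ⟨a⁻¹, a * G, (SGr B).inv_mem ham, (SGr B).mul_mem ham hGm, ⟨1, ?_⟩, ⟨1, ?_⟩, ?_⟩
  · rw [orderOf_inv]
    apply hord
    rw [ha0]
    exact hpow _ hAN
  · apply hord
    rw [haG]
    exact hpow _ hAMN
  · intro v
    rw [← LinearEquiv.mul_apply, inv_mul_cancel_left]
    rfl

end

end Cfsg.Agent.H876.PwU3
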