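import Cfsg.Agent.H876.PwU3.Code
import Cfsg.Agent.H700.PwU.Crit
import Cfsg.Agent.H951.OreU.T7a

/-!
# Soundness of the certificate (helper876)
-/

set_option autoImplicit false
set_option linter.unusedSectionVars false

namespace Cfsg.Agent.H876.PwU3

open Module Matrix Cfsg.Agent.H951 Cfsg.Agent.H98.Ore Cfsg.Agent.H700.PwU

/-! ### Cayley-Hamilton -/

section

variable {F : Type*} [Field F]

theorem cayley_three (M : Matrix (Fin 3) (Fin 3) F) :
    M ^ 3 = M.trace • M ^ 2 - (M.adjugate).trace • M + M.det • (1 : Matrix (Fin 3) (Fin 3) F) := by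
  rw [Matrix.adjugate_fin_three, Matrix.det_fin_three]
  ext i j
  fin_cases i <;> fin_cases j <;>
    simp [pow_succ, Matrix.mul_apply, Fin.sum_univ_three, Matrix.trace, Matrix.add_apply, Matrix.sub_apply,
      Matrix.smul_apply] <;> ring

theorem JJ_mul : JJ F * JJ F = 1 := by
  ext i j
  fin_cases i <;> fin_cases j <;> simp [JJ, Matrix.mul_apply, Fin.sum_univ_three]

/-- a unitary matrix of determinant one -/
theorem cayley_unitary {σ : F →+* F} (hs : ∀ a, σ (σ a) = a) {M : Matrix (Fin 3) (Fin 3) F}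
    (hM : Mᵀ * JJ F * M.map σ = JJ F) (hd : M.det = 1) :
    M ^ 3 = M.trace • M ^ 2 - σ M.trace • M + (1 : Matrix (Fin 3) (Fin 3) F) := by
  have hJs : (JJ F).map σ = JJ F := by
    ext i j
    fin_cases i <;> fin_cases j <;> simp [JJ]
  have hss : (M.map σ).map σ = M := by
    ext i j
    simp [hs]
  have h1 : (Mᵀ).map σ * JJ F * M = JJ F := by
    have h2 := congrArg (fun X : Matrix (Fin 3) (Fin 3) F => X.map σ) hM
    simp only [Matrix.map_mul, hss, hJs] at h2
    exact h2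
  have h3 : (JJ F * (Mᵀ).map σ * JJ F) * M = 1 := by
    calc (JJ F * (Mᵀ).map σ * JJ F) * M = JJ F * ((Mᵀ).map σ * JJ F * M) := by simp only [Matrix.mul_assoc]
      _ = 1 := by rw [h1, JJ_mul]
  have h4 : M.adjugate = JJ F * (Mᵀ).map σ * JJ F := by
    have h5 : M * (JJ F * (Mᵀ).map σ * JJ F) = 1 := mul_eq_one_comm.1 h3
    have h6 : M.adjugate * M = 1 := by rw [Matrix.adjugate_mul, hd, one_smul]
    calc M.adjugate = M.adjugate * (M * (JJ F * (Mᵀ).map σ * JJ F)) := by rw [h5, mul_one]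
      _ = (M.adjugate * M) * (JJ F * (Mᵀ).map σ * JJ F) := (Matrix.mul_assoc _ _ _).symm
      _ = _ := by rw [h6, one_mul]
  have h7 : M.adjugate.trace = σ M.trace := by
    rw [h4, Matrix.trace_mul_comm, ← Matrix.mul_assoc, JJ_mul, one_mul]
    simp [Matrix.trace, Fin.sum_univ_three]
  rw [← h7]
  conv_lhs => rw [cayley_three M]
  rw [hd, one_smul]

variable {n q T m1 : ℕ} {ω : F}

theorem ch_sound (h : Cd n q T m1 ω) {A : Matrix (Fin 3) (Fin 3) F} {t tb : ℕ}
    (hA : A ^ 3 = ev ω t • A ^ 2 + ev ω tb • A + 1) : ∀ (k c0 c1 c2 : ℕ), ch n T t tb k c0 c1 c2 = true →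
      A ^ k * (ev ω c2 • A ^ 2 + ev ω c1 • A + ev ω c0 • 1) = 1 := by
  have hstep : ∀ c0 c1 c2 : ℕ, A * (ev ω c2 • A ^ 2 + ev ω c1 • A + ev ω c0 • (1 : Matrix (Fin 3) (Fin 3) F)) =
      ev ω (addc n T c1 (mulc n t c2)) • A ^ 2 + ev ω (addc n T c0 (mulc n tb c2)) • A +
        ev ω c2 • (1 : Matrix (Fin 3) (Fin 3) F) := by
    intro c0 c1 c2
    rw [h.add, h.add, h.mul, h.mul, mul_add, mul_add, mul_smul_comm, mul_smul_comm, mul_smul_comm, ← pow_succ',
      hA, mul_one, ← pow_two]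
    simp only [smul_add, add_smul, smul_smul]
    rw [mul_comm (ev ω c2) (ev ω t), mul_comm (ev ω c2) (ev ω tb)]
    abel
  intro k
  induction k with
  | zero =>
    intro c0 c1 c2 hc
    rw [ch, Bool.and_eq_true, Bool.and_eq_true, Nat.beq_eq, Nat.beq_eq, Nat.beq_eq] at hc
    obtain ⟨rfl, rfl, rfl⟩ := hc
    simp
  | succ k ih =>
    intro c0 c1 c2 hc
    have key : ch n T t tb k c2 (addc n T c0 (mulc n tb c2)) (addc n T c1 (mulc n t c2)) = true := by
      rw [ch] at hc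
      split at hc <;> simp_all
    rw [pow_succ, Matrix.mul_assoc, hstep]
    exact ih _ _ _ key

/-- a unitary matrix of determinant one whose trace has a code in `S` -/
theorem pow_eq_one (h : Cd n q T m1 ω) {σ : F →+* F} (hσ : ∀ a, σ a = a ^ q) (hs : ∀ a, σ (σ a) = a) {S : List ℕ}
    {N : ℕ} (hS : (S.all fun t => ch n T t (mulc n m1 (barc n q t)) N 1 0 0) = true)
    {A : Matrix (Fin 3) (Fin 3) F} (hA : Aᵀ * JJ F * A.map σ = JJ F) (hd : A.det = 1) {t : ℕ} (ht : t ∈ S)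
    (htr : A.trace = ev ω t) : A ^ N = 1 := by
  have h1 := cayley_unitary hs hA hd
  have h2 := List.all_eq_true.1 hS t ht
  have h3 := ch_sound h (A := A) (t := t) (tb := mulc n m1 (barc n q t)) (by
    rw [h1, htr, h.mul, h.neg, h.bar, ← hσ, neg_mul, one_mul, neg_smul, sub_eq_add_neg]) N 1 0 0 h2
  simpa [ev_one] using h3

end

/-! ### coordinates -/

section

variable {F V : Type*} [Field F] [Fintype F] [AddCommGroup V] [Module F V] [FiniteDimensional F V]
  {q : ℕ} {σ : F →+* F} {B : V → V → F}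

/-- the form in coordinates -/
theorem form_eq (hB : HS q σ B) (b : Basis (Fin 3) F V) (hb : ∀ i j, B (b i) (b j) = JJ F i j) (u v : V) :
    B u v = (b.repr u : Fin 3 → F) ⬝ᵥ (JJ F *ᵥ fun j => σ (b.repr v j)) := by
  conv_lhs => rw [← b.sum_repr u, ← b.sum_repr v]
  rw [sum_left' hB, dotProduct]
  apply Finset.sum_congr rfl
  intro i _
  rw [sum_right' hB, Matrix.mulVec, dotProduct]
  congr 1
  apply Finset.sum_congr rfl
  intro j _
  rw [hb, mul_comm]

theorem isom_toLin (hB : HS q σ B) (b : Basis (Fin 3) F V) (hb : ∀ i j, B (b i) (b j) = JJ F i j)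
    {M : Matrix (Fin 3) (Fin 3) F} (hM : Mᵀ * JJ F * M.map σ = JJ F) : Isom B (Matrix.toLin b b M) := by
  intro u v
  rw [form_eq hB b hb, form_eq hB b hb]
  have h1 : ∀ u : V, (b.repr (Matrix.toLin b b M u) : Fin 3 → F) = M *ᵥ (b.repr u : Fin 3 → F) := by
    intro u
    rw [Matrix.repr_toLin]
  have h2 : (fun j => σ (b.repr (Matrix.toLin b b M v) j)) = M.map σ *ᵥ fun j => σ (b.repr v j) := by
    funext j
    rw [show b.repr (Matrix.toLin b b M v) j = (M *ᵥ (b.repr v : Fin 3 → F)) j from congrFun (h1 v) j]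
    simp only [Matrix.mulVec, dotProduct, map_sum, map_mul, Matrix.map_apply]
  have h3 : ∀ (U W : Fin 3 → F), (M *ᵥ U) ⬝ᵥ (JJ F *ᵥ (M.map σ *ᵥ W)) = U ⬝ᵥ ((Mᵀ * JJ F * M.map σ) *ᵥ W) := by
    intro U W
    rw [← Matrix.vecMul_transpose, ← Matrix.dotProduct_mulVec, Matrix.mulVec_mulVec, Matrix.mulVec_mulVec]
  rw [h1 u, h2, h3, hM]

theorem toMatrix_isom (hB : HS q σ B) (b : Basis (Fin 3) F V) (hb : ∀ i j, B (b i) (b j) = JJ F i j)
    {g : End F V} (hg : Isom B g) :
    (LinearMap.toMatrix b b g)ᵀ * JJ F * (LinearMap.toMatrix b b g).map σ = JJ F := by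
  ext i j
  have h1 := hg (b i) (b j)
  rw [hb, form_eq hB b hb] at h1
  rw [← h1, Matrix.mul_assoc, Matrix.mul_apply]
  refine Finset.sum_congr rfl fun k _ => ?_
  rw [Matrix.transpose_apply, LinearMap.toMatrix_apply, Matrix.mul_apply]
  congr 1
  rw [Matrix.mulVec, dotProduct]
  apply Finset.sum_congr rfl
  intro l _
  rw [Matrix.map_apply, LinearMap.toMatrix_apply]

end

end Cfsg.Agent.H876.PwU3
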